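import Cfsg.Agent.Lib.ThR.R0
import Cfsg.Agent.Lib.ThR.D1
import Cfsg.Agent.Lib.ThS.Defs

/-! Tests for the power-commutator relations. -/

set_option autoImplicit false

namespace Cfsg.Agent.ThR

/-- The codes of the ten generators. -/
noncomputable def yc : ℕ → ℕ
  | 0 => y0
  | 1 => y1
  | 2 => y2
  | 3 => y3
  | 4 => y4
  | 5 => y5
  | 6 => xt
  | 7 => y7
  | 8 => y8
  | _ => y9

/-- The code of a word in the ten generators. -/
noncomputable def prodC (l : List ℕ) : ℕ :=
  List.rec on (fun x l r => List.rec (yc x) (fun _ _ _ => mu (yc x) r) l) l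

theorem rp_prodC {y : ℕ → GL248} (h : ∀ i, Rp (yc i) (y i)) (l : List ℕ) :
    Rp (prodC l) (l.map y).prod := by
  induction l with
  | nil => exact rp_one
  | cons x l ih =>
    cases l with
    | nil => rw [List.map_singleton, List.prod_singleton]; exact h x
    | cons z l => rw [List.map_cons, List.prod_cons]; exact (h x).mul ih

noncomputable def cuB (i : ℕ) : Bool :=
  Nat.beq (mu (mu (yc i) (yc i)) (yc i)) (prodC (ThS.W (ThS.cube i)))

noncomputable def cjB (j i : ℕ) : Bool :=
  Nat.beq (mu (yc j) (yc i)) (mu (yc i) (prodC (ThS.W (ThS.cjg j i))))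

theorem of_cuB {y : ℕ → GL248} (h : ∀ i, Rp (yc i) (y i)) {i : ℕ} (e : cuB i = true) :
    y i ^ 3 = ThS.nf y (ThS.cube i) := by
  rw [pow_three']
  exact (((h i).mul (h i)).mul (h i)).eq_of (rp_prodC h _) e

theorem of_cjB {y : ℕ → GL248} (h : ∀ i, Rp (yc i) (y i)) {j i : ℕ} (e : cjB j i = true) :
    y j * y i = y i * ThS.nf y (ThS.cjg j i) :=
  ((h j).mul (h i)).eq_of ((h i).mul (rp_prodC h _)) e

end Cfsg.Agent.ThR
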