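import Cfsg.Agent.Lib.ThR.C0

/-! The power-commutator relations hold for the matrices. -/

set_option autoImplicit false
set_option maxRecDepth 100000
set_option Elab.async false

namespace Cfsg.Agent.ThR

theorem cj10 : cjB 1 0 = true := by decide +kernel

theorem cj40 : cjB 4 0 = true := by decide +kernel

theorem cj50 : cjB 5 0 = true := by decide +kernel

theorem cj51 : cjB 5 1 = true := by decide +kernel

theorem cj61 : cjB 6 1 = true := by decide +kernel

theorem cj64 : cjB 6 4 = true := by decide +kernel

theorem cj70 : cjB 7 0 = true := by decide +kernel

theorem cj75 : cjB 7 5 = true := by decide +kernel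

theorem cj80 : cjB 8 0 = true := by decide +kernel

theorem cj82 : cjB 8 2 = true := by decide +kernel

theorem cj85 : cjB 8 5 = true := by decide +kernel

theorem cj90 : cjB 9 0 = true := by decide +kernel

theorem cj93 : cjB 9 3 = true := by decide +kernel

theorem cj96 : cjB 9 6 = true := by decide +kernel

theorem cu4 : cuB 4 = true := by decide +kernel

theorem cu5 : cuB 5 = true := by decide +kernel

theorem cu8 : cuB 8 = true := by decide +kernel

end Cfsg.Agent.ThR
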