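import Cfsg.Agent.Lib.ThR.C0

/-! The power-commutator relations hold for the matrices. -/

set_option autoImplicit false
set_option maxRecDepth 100000
set_option Elab.async false

namespace Cfsg.Agent.ThR

theorem cj20 : cjB 2 0 = true := by decide +kernel

theorem cj21 : cjB 2 1 = true := by decide +kernel

theorem cj32 : cjB 3 2 = true := by decide +kernel

theorem cj43 : cjB 4 3 = true := by decide +kernel

theorem cj52 : cjB 5 2 = true := by decide +kernel

theorem cj54 : cjB 5 4 = true := by decide +kernel

theorem cj62 : cjB 6 2 = true := by decide +kernel

theorem cj71 : cjB 7 1 = true := by decide +kernel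

theorem cj72 : cjB 7 2 = true := by decide +kernel

theorem cj76 : cjB 7 6 = true := by decide +kernel

theorem cj83 : cjB 8 3 = true := by decide +kernel

theorem cj86 : cjB 8 6 = true := by decide +kernel

theorem cj91 : cjB 9 1 = true := by decide +kernel

theorem cj94 : cjB 9 4 = true := by decide +kernel

theorem cj97 : cjB 9 7 = true := by decide +kernel

theorem cu0 : cuB 0 = true := by decide +kernel

theorem cu2 : cuB 2 = true := by decide +kernel

theorem cu6 : cuB 6 = true := by decide +kernel

theorem cu9 : cuB 9 = true := by decide +kernel

end Cfsg.Agent.ThR
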