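import Cfsg.Agent.Lib.ThR.C0

/-! The power-commutator relations hold for the matrices. -/

set_option autoImplicit false
set_option maxRecDepth 100000
set_option Elab.async false

namespace Cfsg.Agent.ThR

theorem cj30 : cjB 3 0 = true := by decide +kernel

theorem cj31 : cjB 3 1 = true := by decide +kernel

theorem cj41 : cjB 4 1 = true := by decide +kernel

theorem cj42 : cjB 4 2 = true := by decide +kernel

theorem cj53 : cjB 5 3 = true := by decide +kernel

theorem cj60 : cjB 6 0 = true := by decide +kernel

theorem cj63 : cjB 6 3 = true := by decide +kernel

theorem cj65 : cjB 6 5 = true := by decide +kernel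

theorem cj73 : cjB 7 3 = true := by decide +kernel

theorem cj74 : cjB 7 4 = true := by decide +kernel

theorem cj81 : cjB 8 1 = true := by decide +kernel

theorem cj84 : cjB 8 4 = true := by decide +kernel

theorem cj87 : cjB 8 7 = true := by decide +kernel

theorem cj92 : cjB 9 2 = true := by decide +kernel

theorem cj95 : cjB 9 5 = true := by decide +kernel

theorem cj98 : cjB 9 8 = true := by decide +kernel

theorem cu1 : cuB 1 = true := by decide +kernel

theorem cu3 : cuB 3 = true := by decide +kernel

theorem cu7 : cuB 7 = true := by decide +kernel

end Cfsg.Agent.ThR
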