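import Cfsg.Agent.Lib.PermCert.Basic

/-! Divisors of the order of a group from a chain of orbits on labelled points. -/

set_option autoImplicit false

namespace Cfsg.Agent.ThR

open Cfsg.Agent.PC MulAction
open scoped Pointwise

/-- The action of a word on the labels. -/
noncomputable def pw (p : ℕ → ℕ → ℕ) (w : List ℕ) : ℕ → ℕ :=
  List.rec (fun k => k) (fun l _ r k => r (p l k)) w

section
variable (p : ℕ → ℕ → ℕ) (N : ℕ)

noncomputable def stp (ws : List (List ℕ)) (m : ℕ) : ℕ :=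
  m ||| orN (fun k => orL (fun _ => m.testBit k) (fun w => 1 <<< pw p w k) ws) N

noncomputable def clo (ws : List (List ℕ)) (b T : ℕ) : ℕ :=
  Nat.rec (1 <<< b) (fun _ m => stp p N ws m) T

noncomputable def cnt (m : ℕ) : ℕ := Nat.rec 0 (fun k r => (m.testBit k).rec r (r + 1)) N

noncomputable def lvl (T : ℕ) (ws ws' : List (List ℕ)) (b n : ℕ) : Bool :=
  Nat.blt b N && Nat.beq (cnt N (clo p N ws b T)) n && allL (fun w => Nat.beq (pw p w b) b) ws' &&
    allN (fun k => allL (fun w => !(clo p N ws b T).testBit k ||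
      (clo p N ws b T).testBit (pw p w k)) ws) N

/-- The generators of a chain. -/
def gens (L : List (List (List ℕ) × ℕ × ℕ)) : List (List ℕ) := L.flatMap (·.1)

noncomputable def chainB (T : ℕ) (L : List (List (List ℕ) × ℕ × ℕ)) : Bool :=
  List.rec true (fun x L r => lvl p N T (x.1 ++ gens L) (gens L) x.2.1 x.2.2 && r) L

end

theorem cnt_eq (N m : ℕ) : cnt N m = {k | k < N ∧ m.testBit k = true}.ncard := by
  have : cnt N m = Nat.count (fun k => m.testBit k = true) N := by
    induction N with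
    | zero => rfl
    | succ N ih =>
      rw [Nat.count_succ, ← ih]
      change ((m.testBit N).rec (cnt N m) (cnt N m + 1) : ℕ) = _
      cases m.testBit N <;> simp
  rw [this, Nat.count_eq_card_filter_range, ← Set.ncard_coe_finset]
  congr 1
  ext k
  simp

variable {G Ω : Type*} [Group G] [MulAction G Ω] (vec : ℕ → Ω) (N : ℕ)

/-- `g` acts on the labelled points as `π`. -/
def Act (g : G) (π : ℕ → ℕ) : Prop := ∀ k < N, π k < N ∧ g • vec k = vec (π k)

/-- The element given by a word. -/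
noncomputable def gw (f : ℕ → G) (w : List ℕ) : G := List.rec 1 (fun l _ r => r * f l) w

/-- The subgroup generated by some words. -/
noncomputable def Hw (f : ℕ → G) (ws : List (List ℕ)) : Subgroup G :=
  Subgroup.closure (gw f '' {w | w ∈ ws})

variable {vec N} {f : ℕ → G} {p : ℕ → ℕ → ℕ} (hA : ∀ l, Act vec N (f l) (p l))
include hA

theorem act_w (w : List ℕ) : Act vec N (gw f w) (pw p w) := by
  induction w with
  | nil => exact fun k hk => ⟨hk, one_smul _ _⟩
  | cons l w ih =>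
    intro k hk
    obtain ⟨h1, h2⟩ := hA l k hk
    obtain ⟨h3, h4⟩ := ih _ h1
    exact ⟨h3, (mul_smul (gw f w) (f l) _).trans (by rw [h2, h4]; rfl)⟩

theorem clo_s {ws : List (List ℕ)} {b : ℕ} (hb : b < N) (T : ℕ) :
    (clo p N ws b T).testBit b = true ∧
      ∀ k, (clo p N ws b T).testBit k = true → vec k ∈ orbit (Hw f ws) (vec b) := by
  induction T with
  | zero =>
    exact ⟨testBit_one_shl.2 rfl, fun k hk => by
      obtain rfl := testBit_one_shl.1 hk
      exact mem_orbit_self _⟩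
  | succ T ih =>
    change (stp p N ws (clo p N ws b T)).testBit b = true ∧
      ∀ k, (stp p N ws (clo p N ws b T)).testBit k = true → _
    simp only [stp, Nat.testBit_or, Bool.or_eq_true, testBit_orN, testBit_orL, testBit_one_shl]
    refine ⟨Or.inl ih.1, ?_⟩
    rintro k (hk | ⟨i, hi, w, hw, h1, rfl⟩)
    · exact ih.2 k hk
    · rw [← (act_w hA w i hi).2]
      exact mapsTo_smul_orbit (⟨gw f w, Subgroup.subset_closure ⟨w, hw, rfl⟩⟩ : Hw f ws) _
        (ih.2 i h1)

variable (hi : Set.InjOn vec {k | k < N})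
include hi

theorem lvl_s {T : ℕ} {vs ws : List (List ℕ)} {b n : ℕ} (h : lvl p N T (vs ++ ws) ws b n = true) :
    n * Nat.card (Hw f ws) ∣ Nat.card (Hw f (vs ++ ws)) := by
  simp only [lvl, Bool.and_eq_true, Nat.blt_eq, Nat.beq_eq, allL_iff, allN_iff, Bool.or_eq_true,
    Bool.not_eq_true'] at h
  obtain ⟨⟨⟨hb, hn⟩, h1⟩, h2⟩ := h
  obtain ⟨h3, h4⟩ := clo_s hA (ws := vs ++ ws) hb T
  set m := clo p N (vs ++ ws) b T
  let S : Set Ω := vec '' {k | k < N ∧ m.testBit k = true}
  have hS : S.Finite := ((Set.finite_lt_nat N).subset fun k hk => hk.1).image _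
  have h5 : Hw f (vs ++ ws) ≤ stabilizer G S := (Subgroup.closure_le _).2 (by
    rintro _ ⟨w, hw, rfl⟩
    refine (mem_stabilizer_set_iff_smul_set_subset hS).2 ?_
    rintro _ ⟨_, ⟨k, hk, rfl⟩, rfl⟩
    exact ⟨_, ⟨(act_w hA w k hk.1).1, (h2 k hk.1 w hw).resolve_left (by simp [hk.2])⟩,
      (act_w hA w k hk.1).2.symm⟩)
  have h6 : orbit (Hw f (vs ++ ws)) (vec b) = S := by
    refine Set.Subset.antisymm ?_ (by rintro _ ⟨k, hk, rfl⟩; exact h4 k hk.2)
    rintro _ ⟨g, rfl⟩
    rw [← mem_stabilizer_iff.1 (h5 g.2)]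
    exact ⟨_, ⟨b, ⟨hb, h3⟩, rfl⟩, rfl⟩
  have h7 : Hw f ws ≤ Hw f (vs ++ ws) :=
    Subgroup.closure_mono (Set.image_mono fun w hw => List.mem_append_right _ hw)
  have h8 : Hw f ws ≤ stabilizer G (vec b) := (Subgroup.closure_le _).2 (by
    rintro _ ⟨w, hw, rfl⟩
    exact (act_w hA w b hb).2.trans (by rw [h1 w hw]))
  rw [← Subgroup.index_mul_card (stabilizer (Hw f (vs ++ ws)) (vec b)), index_stabilizer, h6,
    (hi.mono fun k hk => hk.1).ncard_image, ← cnt_eq, hn,
    ← Nat.card_congr (Subgroup.subgroupOfEquivOfLe h7).toEquiv]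
  exact Nat.mul_dvd_mul_left _ (Subgroup.card_dvd_of_le fun g hg => h8 hg)

theorem chain_s {T : ℕ} {L : List (List (List ℕ) × ℕ × ℕ)} (h : chainB p N T L = true) :
    (L.map (·.2.2)).prod ∣ Nat.card (Hw f (gens L)) := by
  induction L with
  | nil => exact one_dvd _
  | cons x L ih =>
    obtain ⟨h1, h2⟩ := Bool.and_eq_true_iff.1 h
    exact (Nat.mul_dvd_mul_left _ (ih h2)).trans (lvl_s hA hi h1)

theorem chain_dvd {T : ℕ} {L : List (List (List ℕ) × ℕ × ℕ)} (h : chainB p N T L = true) :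
    (L.map (·.2.2)).prod ∣ Nat.card G :=
  (chain_s hA hi h).trans (Subgroup.card_subgroup_dvd_card _)

end Cfsg.Agent.ThR
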