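import Cfsg.Agent.Lib.ThR.Rho
import Cfsg.Agent.Lib.ThR.Orb

/-! The action of the Thompson group on row vectors. -/

set_option autoImplicit false

namespace Cfsg.Agent.ThR

open Cfsg.Agent.Pk Cfsg.Agent.PC Cfsg.Spor Matrix

/-- Row vectors. -/
def Om : Type := Fin 248 → ZMod 5

noncomputable instance : MulAction Th Om where
  smul g v := Matrix.vecMul v (rho g⁻¹).val
  one_smul v := by
    change Matrix.vecMul v (rho 1⁻¹).val = v
    rw [inv_one, map_one, Units.val_one]
    exact vecMul_one _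
  mul_smul g h v := by
    change Matrix.vecMul v (rho (g * h)⁻¹).val =
      Matrix.vecMul (Matrix.vecMul v (rho h⁻¹).val) (rho g⁻¹).val
    rw [_root_.mul_inv_rev, map_mul, Units.val_mul]
    exact (vecMul_vecMul _ _ _).symm

def rowW (W X k : ℕ) : ℕ := Nat.land (Nat.shiftRight X (Nat.mul W k)) (Nat.sub (Nat.pow 2 W) 1)

theorem rowW_eq (W X k : ℕ) : rowW W X k = lane W X k := by
  change (X >>> (W * k)) &&& (2 ^ W - 1) = _
  rw [Nat.and_two_pow_sub_one_eq_mod, Nat.shiftRight_eq_div_pow]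
  rfl

/-- A row of a code. -/
def row (X k : ℕ) : ℕ := rowW (24 * 248) X k

theorem row_eq (X k : ℕ) : row X k = lane (24 * 248) X k := rowW_eq _ _ _

/-- The matrix of a code. -/
def tM (X : ℕ) : Matrix (Fin 248) (Fin 248) (ZMod 5) := P248.toM X

theorem tM_mu {X y : ℕ} {g : GL248} (hX : P248.Val X) (h : Rp y g) :
    tM (mu X y) = tM X * g.val :=
  (Par.toM_mul ok248 hX h.1).trans
    (congrArg (fun A : Matrix (Fin 248) (Fin 248) (ZMod 5) => tM X * A) h.2)

theorem val_mu {X y : ℕ} {g : GL248} (hX : P248.Val X) (h : Rp y g) : P248.Val (mu X y) :=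
  Par.val_mul ok248 hX h.1

/-- The vector in a row. -/
def vec (X k : ℕ) : Om := fun j => (lane 24 (row X k) j : ZMod 5)

theorem vec_eq (X : ℕ) (k : Fin 248) : vec X k = tM X k :=
  funext fun j => by rw [vec, row_eq, lane_lane j.2]; rfl

/-- A word applied to all rows. -/
noncomputable def evX (w : Wd) (Y : ℕ) : ℕ := w.foldl (fun Y y => mu Y (t y.1 y.2)) Y

theorem evX_cons (y : Th.Gen × Bool) (w : Wd) (Y : ℕ) :
    evX (y :: w) Y = evX w (mu Y (t y.1 y.2)) := by rw [evX, evX, List.foldl_cons]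

theorem val_nil : val [] = 1 := map_one (FreeGroup.lift f0)

theorem evX_s (w : Wd) : ∀ Y, P248.Val Y → tM (evX w Y) = tM Y * (val w).val := by
  induction w with
  | nil =>
    intro Y _
    rw [val_nil, Units.val_one, Matrix.mul_one, evX, List.foldl_nil]
  | cons y w ih =>
    intro Y hY
    have h := rp_letter y.1 y.2
    rw [evX_cons, ih _ (val_mu hY h), tM_mu hY h, Matrix.mul_assoc, ← Units.val_mul, ← val_append]
    rfl

noncomputable def actB (X N : ℕ) (w : Wd) (c : ℕ) : Bool :=
  allN (fun k => Nat.blt (ap 8 c k) N && Nat.beq (row (evX w X) k) (row X (ap 8 c k))) N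

theorem act_of {X N c : ℕ} {w : Wd} (hX : P248.Val X) (hN : N ≤ 248) (h : actB X N w c = true) :
    Act (vec X) N (wT w)⁻¹ (ap 8 c) := fun k hk => by
  have := allN_iff.1 h k hk
  rw [Bool.and_eq_true, Nat.blt_eq, Nat.beq_eq] at this
  refine ⟨this.1, ?_⟩
  have h1 : vec X (ap 8 c k) = vec (evX w X) k := by unfold vec; rw [this.2]
  rw [h1, vec_eq (evX w X) ⟨k, by omega⟩, vec_eq X ⟨k, by omega⟩, evX_s w X hX]
  change Matrix.vecMul _ (rho (wT w)⁻¹⁻¹).val = _
  rw [inv_inv]
  rfl

noncomputable def injB (X N : ℕ) : Bool :=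
  vB X && Nat.ble N 248 && allN (fun k => Nat.blt (row X k) (row X (k + 1))) (N - 1)

theorem inj_of {X N : ℕ} (h : injB X N = true) :
    P248.Val X ∧ N ≤ 248 ∧ Set.InjOn (vec X) {k | k < N} := by
  simp only [injB, Bool.and_eq_true, Nat.ble_eq, allN_iff, Nat.blt_eq] at h
  have hX := Par.val_of_valB ok248 h.1.1
  have h1 : ∀ j < N, ∀ i < j, row X i < row X j := fun j hj => by
    induction j with
    | zero => exact fun i hi => absurd hi (Nat.not_lt_zero _)
    | succ j ih =>
      intro i hi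
      rcases Nat.lt_succ_iff_lt_or_eq.1 hi with hi | rfl
      · exact (ih (by omega) i hi).trans (h.2 j (by omega))
      · exact h.2 i (by omega)
  have h2 : ∀ i j, vec X i = vec X j → row X i = row X j := fun i j e =>
    lane_ext (w := 24) (by decide) fun s => by
      by_cases hs : s < 248
      · have h3 := congrFun e ⟨s, hs⟩
        have h4 : ∀ i, lane 24 (row X i) s < 5 := fun i => by
          rw [row_eq, lane_lane hs]; exact hX.2 _
        rwa [vec, vec, ZMod.natCast_eq_natCast_iff', Nat.mod_eq_of_lt (h4 _),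
          Nat.mod_eq_of_lt (h4 _)] at h3
      · rw [row_eq, row_eq, lane_eq_zero (lane_lt _ _ _) (not_lt.1 hs),
          lane_eq_zero (lane_lt _ _ _) (not_lt.1 hs)]
  refine ⟨hX, h.1.2, fun i hi j hj e => ?_⟩
  rcases lt_trichotomy i j with h3 | h3 | h3
  · exact absurd (h2 i j e) (h1 j hj i h3).ne
  · exact h3
  · exact absurd (h2 i j e) (h1 i hi j h3).ne'

/-- The permutations attached to a list of codes. -/
noncomputable def pl (cs : List ℕ) : ℕ → ℕ → ℕ :=
  List.rec (fun _ k => k) (fun c _ r l => Nat.rec (ap 8 c) (fun l _ => r l) l) cs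

/-- All codes of the list describe words. -/
inductive ActL (X N : ℕ) : List ℕ → Prop
  | nil : ActL X N []
  | cons {w : Wd} {c : ℕ} {cs : List ℕ} : actB X N w c = true → ActL X N cs → ActL X N (c :: cs)

theorem ActL.ex {X N : ℕ} {cs : List ℕ} (hX : P248.Val X) (hN : N ≤ 248) (h : ActL X N cs) :
    ∀ l, ∃ g : Th, Act (vec X) N g (pl cs l) := by
  induction h with
  | nil => exact fun _ => ⟨1, fun k hk => ⟨hk, one_smul _ _⟩⟩
  | cons h _ ih =>
    intro l
    cases l with
    | zero => exact ⟨_, act_of hX hN h⟩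
    | succ l => exact ih l

theorem dvd_of {X N T : ℕ} {cs : List ℕ} {L : List (List (List ℕ) × ℕ × ℕ)}
    (h1 : injB X N = true) (h2 : ActL X N cs) (h3 : chainB (pl cs) N T L = true) :
    (L.map (·.2.2)).prod ∣ Nat.card Th := by
  obtain ⟨hX, hN, hi⟩ := inj_of h1
  choose f hf using h2.ex hX hN
  exact chain_dvd hf hi h3

end Cfsg.Agent.ThR
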