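import Cfsg.Agent.Lib.ThR.D0
import Cfsg.Prelude.Def_Spor_Th

/-! Codes of `248 × 248` matrices over the field with five elements, and words. -/

set_option autoImplicit false
set_option maxRecDepth 100000
set_option Elab.async false

namespace Cfsg.Agent.ThR

open Cfsg.Agent.Pk Cfsg.Agent.PC Cfsg.Agent.SporFus Cfsg.Spor

/-- `248 × 248` matrices over the field with five elements. -/
def P248 : Par := ⟨248, 24, 5, 3277, 14, 3⟩

theorem ok248 : P248.Ok := by decide

abbrev GL248 := GL (Fin 248) (ZMod 5)

/-- `x` is the code of `g`. -/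
def Rp (x : ℕ) (g : GL248) : Prop := P248.Rep x g

/-- The product of codes. -/
noncomputable def mu (x y : ℕ) : ℕ := P248.mul x y

/-- The code of the identity. -/
def on : ℕ := P248.one

/-- The test for codes. -/
def vB (x : ℕ) : Bool := P248.valB x

theorem sound : Sound Rp mu Nat.beq := Par.sound ok248

theorem rp_one : Rp on 1 := Par.rep_one ok248

theorem Rp.mul {x y : ℕ} {g k : GL248} (hx : Rp x g) (hy : Rp y k) : Rp (mu x y) (g * k) :=
  sound.rep_mul hx hy

theorem Rp.eq_of {x y : ℕ} {g k : GL248} (hx : Rp x g) (hy : Rp y k) (h : Nat.beq x y = true) :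
    g = k := sound.eq_of hx hy h

theorem Rp.ne_of {x y : ℕ} {g k : GL248} (hx : Rp x g) (hy : Rp y k) (h : Nat.beq x y = false) :
    g ≠ k := sound.ne_of hx hy h

theorem Rp.lit {x y : ℕ} {g : GL248} (hx : Rp x g) (h : Nat.beq y x = true) : Rp y g :=
  Nat.eq_of_beq_eq_true h ▸ hx

theorem Rp.inv {x y : ℕ} {g : GL248} (hx : Rp x g) (h : (vB y && Nat.beq (mu x y) on) = true) :
    Rp y g⁻¹ := by
  simp only [Bool.and_eq_true, Nat.beq_eq] at h
  exact Par.rep_inv ok248 hx h.1 h.2

theorem exists_rp {x y : ℕ} (h : (vB x && vB y && Nat.beq (mu x y) on) = true) :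
    ∃ g, Rp x g ∧ Rp y g⁻¹ := by
  simp only [Bool.and_eq_true, Nat.beq_eq] at h
  exact ⟨Par.unit ok248 h.1.1 h.1.2 h.2, Par.rep_unit ok248 _ _ _, Par.rep_unit_inv ok248 _ _ _⟩

/-- The codes of the generators and their inverses. -/
noncomputable def t : Th.Gen → Bool → ℕ
  | .a, _ => xa
  | .b, _ => xb
  | .c, _ => xc
  | .d, _ => xd
  | .e, _ => xe
  | .s, true => xs
  | .s, false => xS
  | .t, true => xt
  | .t, false => xT
  | .u, true => xu
  | .u, false => xU

theorem ex_t : ∀ g, ∃ k, Rp (t g true) k ∧ Rp (t g false) k⁻¹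
  | .a => exists_rp (by decide +kernel)
  | .b => exists_rp (by decide +kernel)
  | .c => exists_rp (by decide +kernel)
  | .d => exists_rp (by decide +kernel)
  | .e => exists_rp (by decide +kernel)
  | .s => exists_rp (by decide +kernel)
  | .t => exists_rp (by decide +kernel)
  | .u => exists_rp (by decide +kernel)

/-- The images of the generators. -/
noncomputable def f0 (g : Th.Gen) : GL248 := (ex_t g).choose

theorem rp_t (g : Th.Gen) : Rp (t g true) (f0 g) ∧ Rp (t g false) (f0 g)⁻¹ := (ex_t g).choose_spec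

/-- Words. -/
abbrev Wd := List (Th.Gen × Bool)

/-- The value of a word. -/
noncomputable def val (w : Wd) : GL248 := FreeGroup.lift f0 (FreeGroup.mk w)

theorem val_append (v w : Wd) : val (v ++ w) = val v * val w := by
  rw [val, ← FreeGroup.mul_mk, map_mul]; rfl

theorem val_invRev (w : Wd) : val (FreeGroup.invRev w) = (val w)⁻¹ := by
  rw [val, ← FreeGroup.inv_mk, map_inv]; rfl

theorem rp_letter (g : Th.Gen) (b : Bool) : Rp (t g b) (val [(g, b)]) := by
  rw [val, FreeGroup.lift_mk]
  cases b
  · simpa using (rp_t g).2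
  · simpa using (rp_t g).1

/-- Bracketed words. -/
inductive Ex
  | l (g : Th.Gen) (b : Bool)
  | m (x y : Ex)

noncomputable def Ex.wd (x : Ex) : Wd := Ex.rec (fun g b => [(g, b)]) (fun _ _ v w => v ++ w) x

noncomputable def Ex.ev (x : Ex) : ℕ := Ex.rec t (fun _ _ v w => mu v w) x

theorem Ex.rp (x : Ex) : Rp x.ev (val x.wd) := by
  induction x with
  | l g b => exact rp_letter g b
  | m x y hx hy => exact val_append _ _ ▸ hx.mul hy

/-- Involutions are their own inverses. -/
def nm : Th.Gen × Bool → Th.Gen × Bool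
  | (.s, b) => (.s, b)
  | (.t, b) => (.t, b)
  | (.u, b) => (.u, b)
  | (g, _) => (g, true)

theorem val_nm (w : Wd) : val (w.map nm) = val w := by
  induction w with
  | nil => rfl
  | cons y w ih =>
    rw [List.map_cons, ← List.singleton_append, val_append, ih, ← List.singleton_append (x := y),
      val_append]
    refine congrArg (· * val w) ?_
    obtain ⟨g, b⟩ := y
    cases g
    exacts [sound.uniq (rp_letter .a true) (rp_letter .a b),
      sound.uniq (rp_letter .b true) (rp_letter .b b),
      sound.uniq (rp_letter .c true) (rp_letter .c b),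
      sound.uniq (rp_letter .d true) (rp_letter .d b),
      sound.uniq (rp_letter .e true) (rp_letter .e b), rfl, rfl, rfl]

/-- The test for one relator. -/
noncomputable def okR (i : ℕ) (x y : Ex) : Bool :=
  decide ((Th.extra.getD i 1).toWord.map nm = (x.wd ++ FreeGroup.invRev y.wd).map nm) &&
    Nat.beq x.ev y.ev

theorem lift_of_okR {i : ℕ} {x y : Ex} (h : okR i x y = true) :
    FreeGroup.lift f0 (Th.extra.getD i 1) = 1 := by
  rw [okR, Bool.and_eq_true, decide_eq_true_eq] at h
  rw [← FreeGroup.mk_toWord (x := Th.extra.getD i 1)]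
  change val _ = 1
  rw [← val_nm, h.1, val_nm, val_append, val_invRev, x.rp.eq_of y.rp h.2, mul_inv_cancel]

def ea : Ex := .l .a true
def eb : Ex := .l .b true
def ec : Ex := .l .c true
def ed : Ex := .l .d true
def ee : Ex := .l .e true
def es : Ex := .l .s true
def eS : Ex := .l .s false
def et : Ex := .l .t true
def eT : Ex := .l .t false
def eu : Ex := .l .u true
def eU : Ex := .l .u false

instance : Mul Ex := ⟨Ex.m⟩

end Cfsg.Agent.ThR
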