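import Cfsg.Agent.Lib.ThR.R0

/-! The relators of the Thompson group hold in the representation of degree `248`. -/

set_option autoImplicit false
set_option maxRecDepth 100000
set_option Elab.async false

namespace Cfsg.Agent.ThR

theorem r1 : okR 1 (eb)
    (eb) = true := by decide +kernel

theorem r4 : okR 4 (ee)
    (ee) = true := by decide +kernel

theorem r7 : okR 7 (eb)
    (ec * eb * (ec * eb) * ec) = true := by decide +kernel

theorem r8 : okR 8 (eb)
    (ed * eb * ed) = true := by decide +kernel

theorem r14 : okR 14 (es)
    (eS * eS * (eS * eS) * (eS * eS)) = true := by decide +kernel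

theorem r15 : okR 15 (eS)
    (ea * eS * ea) = true := by decide +kernel

theorem r18 : okR 18 (es)
    (ed * eS * ed) = true := by decide +kernel

theorem r23 : okR 23 (eT)
    (ec * eT * ec) = true := by decide +kernel

theorem r27 : okR 27 (eu)
    (ea * ec * eU) = true := by decide +kernel

theorem r30 : okR 30 (eU)
    (ee * eU * ee) = true := by decide +kernel

theorem r33 : okR 33 (ed * eU * (ed * eb * ec * ea * eb) * ed * eu * (ed * eb) * ea * ec * eb * ec * ee * (ed * eU * (ed * eb * ec * ea * eb)))
    (eu * ee) = true := by decide +kernel

theorem r35 : okR 35 (ee * (eS * (eS * (eU * (es * es)))))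
    (eS * (eS * (eU * (es * es))) * ee) = true := by decide +kernel

theorem r36 : okR 36 (ea)
    (eu * es * (eu * es) * (eu * es) * ec) = true := by decide +kernel

end Cfsg.Agent.ThR
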