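import Cfsg.Agent.Lib.ThR.R0

/-! The relators of the Thompson group hold in the representation of degree `248`. -/

set_option autoImplicit false
set_option maxRecDepth 100000
set_option Elab.async false

namespace Cfsg.Agent.ThR

theorem r2 : okR 2 (ec)
    (ec) = true := by decide +kernel

theorem r9 : okR 9 (eb)
    (ee * eb * ee) = true := by decide +kernel

theorem r10 : okR 10 (ea)
    (ec * ed * (ec * ed) * (ec * ed * (ec * ed))) = true := by decide +kernel

theorem r13 : okR 13 (eb)
    (ee * ed * ec * eb * (ee * ed * ec * eb) * (ee * ed * ec * eb * (ee * ed * ec * eb)) * (ee * ed * ec * eb * (ee * ed * ec * eb)) * (ee * ed * ec * eb) * (ee * ed * ec)) = true := by decide +kernel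

theorem r16 : okR 16 (eS)
    (eb * eS * eb) = true := by decide +kernel

theorem r19 : okR 19 (ee)
    (eS * eS * eS * (ee * es) * es * (ee * es)) = true := by decide +kernel

theorem r21 : okR 21 (eT)
    (ea * eT * ea) = true := by decide +kernel

theorem r24 : okR 24 (eT)
    (ed * eT * ed) = true := by decide +kernel

theorem r26 : okR 26 (eT)
    (es * es * eT * eS) = true := by decide +kernel

theorem r28 : okR 28 (eU)
    (ea * eU * ea) = true := by decide +kernel

theorem r31 : okR 31 (ed)
    (eU * (ed * (eu * ee)) * ed * (eU * (ed * (eu * ee)))) = true := by decide +kernel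

theorem r32 : okR 32 (eU * (eb * (ec * ea * eb)))
    (ee * (eb * (ec * ea * eb)) * eU) = true := by decide +kernel

theorem r34 : okR 34 (eU)
    (eT * eU * eT) = true := by decide +kernel

end Cfsg.Agent.ThR
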