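import Cfsg.Agent.Lib.ThR.Rl1
import Cfsg.Agent.Lib.ThR.Rl2
import Cfsg.Agent.Lib.ThR.Rl3

/-! A representation of degree `248` of the Thompson group over the field with five elements. -/

set_option autoImplicit false
set_option maxRecDepth 100000

namespace Cfsg.Agent.ThR

open Cfsg.Spor

theorem lift_all (i : ℕ) (hi : i < 39) : FreeGroup.lift f0 (Th.extra.getD i 1) = 1 := by
  interval_cases i
  exacts [lift_of_okR r0, lift_of_okR r1, lift_of_okR r2, lift_of_okR r3, lift_of_okR r4,
    lift_of_okR r5, lift_of_okR r6, lift_of_okR r7, lift_of_okR r8, lift_of_okR r9,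
    lift_of_okR r10, lift_of_okR r11, lift_of_okR r12, lift_of_okR r13, lift_of_okR r14,
    lift_of_okR r15, lift_of_okR r16, lift_of_okR r17, lift_of_okR r18, lift_of_okR r19,
    lift_of_okR r20, lift_of_okR r21, lift_of_okR r22, lift_of_okR r23, lift_of_okR r24,
    lift_of_okR r25, lift_of_okR r26, lift_of_okR r27, lift_of_okR r28, lift_of_okR r29,
    lift_of_okR r30, lift_of_okR r31, lift_of_okR r32, lift_of_okR r33, lift_of_okR r34,
    lift_of_okR r35, lift_of_okR r36, lift_of_okR r37, lift_of_okR r38]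

theorem lift_rel (r : FreeGroup Th.Gen) (hr : r ∈ coxRelators Th.edges ∪ {r | r ∈ Th.extra}) :
    FreeGroup.lift f0 r = 1 := by
  rcases hr with ⟨x, hx, -⟩ | hr
  · cases hx
  · obtain ⟨i, hi, rfl⟩ := List.getElem_of_mem hr
    have := lift_all i hi
    rwa [List.getD_eq_getElem _ _ hi] at this

/-- The representation. -/
noncomputable def rho : Th →* GL248 := PresentedGroup.toGroup lift_rel

theorem rho_of (g : Th.Gen) : rho (PresentedGroup.of g) = f0 g := PresentedGroup.toGroup.of _

theorem rp_of (g : Th.Gen) : Rp (t g true) (rho (PresentedGroup.of g)) := by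
  rw [rho_of]
  exact (rp_t g).1

theorem rp_of_inv (g : Th.Gen) : Rp (t g false) (rho (PresentedGroup.of g)⁻¹) := by
  rw [map_inv, rho_of]
  exact (rp_t g).2

/-- The element of the Thompson group given by a word. -/
def wT (w : Wd) : Th := PresentedGroup.mk _ (FreeGroup.mk w)

theorem rho_wT (w : Wd) : rho (wT w) = val w := rfl

/-- `x` is the code of an element of the image. -/
def Im (x : ℕ) : Prop := ∃ g : Th, Rp x (rho g)

theorem Im.ex (x : Ex) : Im x.ev := ⟨wT x.wd, x.rp⟩

theorem Im.mul {x y : ℕ} (hx : Im x) (hy : Im y) : Im (mu x y) := by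
  obtain ⟨g, hg⟩ := hx
  obtain ⟨k, hk⟩ := hy
  exact ⟨g * k, map_mul rho g k ▸ hg.mul hk⟩

theorem Im.lit {x y : ℕ} (hx : Im x) (h : Nat.beq y x = true) : Im y :=
  Nat.eq_of_beq_eq_true h ▸ hx

theorem Im.inv {x y : ℕ} (hx : Im x) (h : (vB y && Nat.beq (mu x y) on) = true) : Im y := by
  obtain ⟨g, hg⟩ := hx
  exact ⟨g⁻¹, map_inv rho g ▸ hg.inv h⟩

end Cfsg.Agent.ThR
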