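import Cfsg.Agent.Lib.ThR.R0

/-! The relators of the Thompson group hold in the representation of degree `248`. -/

set_option autoImplicit false
set_option maxRecDepth 100000
set_option Elab.async false

namespace Cfsg.Agent.ThR

theorem r0 : okR 0 (ea)
    (ea) = true := by decide +kernel

theorem r3 : okR 3 (ed)
    (ed) = true := by decide +kernel

theorem r5 : okR 5 (ea)
    (eb * ea * (eb * ea) * eb) = true := by decide +kernel

theorem r6 : okR 6 (ea)
    (ee * ea * ee) = true := by decide +kernel

theorem r11 : okR 11 (ec)
    (ee * ec * ee) = true := by decide +kernel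

theorem r12 : okR 12 (ed)
    (ee * ed * (ee * ed) * ee) = true := by decide +kernel

theorem r17 : okR 17 (eS)
    (ec * eS * ec) = true := by decide +kernel

theorem r20 : okR 20 (et)
    (eT * eT) = true := by decide +kernel

theorem r22 : okR 22 (eT)
    (eb * eT * eb) = true := by decide +kernel

theorem r25 : okR 25 (eT)
    (ee * eT * ee) = true := by decide +kernel

theorem r29 : okR 29 (eU)
    (ec * eU * ec) = true := by decide +kernel

theorem r37 : okR 37 (ea)
    (eU * eS * (eu * es) * (eU * eS * (eu * es)) * (eU * eS * (eu * es) * (eU * eS * (eu * es))) * ec) = true := by decide +kernel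

theorem r38 : okR 38 (ed * (eS * eS * eu) * es * es * (ed * (eS * eS * eu) * es * es) * (ed * (eS * eS * eu) * es * es) * (ed * (eS * eS * eu)))
    (ea * (ec * ed) * (ec * ed) * es * (ee * ed * (ec * ed * ee)) * (eS * eS) * eS * (ee * ed * (ec * ed * ee))) = true := by decide +kernel

end Cfsg.Agent.ThR
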