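import Cfsg.Agent.Lib.ThR.Y
import Cfsg.Agent.Lib.ThR.C1
import Cfsg.Agent.Lib.ThR.C2
import Cfsg.Agent.Lib.ThR.C3
import Cfsg.Agent.Lib.ThS.Tab

/-! A section of order `3 ^ 10` of the Thompson group. -/

set_option autoImplicit false
set_option maxRecDepth 100000

namespace Cfsg.Agent.ThR

open Cfsg.Spor Cfsg.Agent.ThS

theorem im_yc : ∀ i, Im (yc i)
  | 0 => im0
  | 1 => im1
  | 2 => im2
  | 3 => im3
  | 4 => im4
  | 5 => im5
  | 6 => im6
  | 7 => im7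
  | 8 => im8
  | _ + 9 => im9

theorem ne9 : Nat.beq (yc 9) on = false := by decide +kernel

theorem exists_rel : ∃ Y : ℕ → Th, Rel fun i => rho (Y i) := by
  choose Y h using im_yc
  refine ⟨Y, fun i hi => ?_, fun j hj i hi => ?_, (h 9).ne_of rp_one ne9⟩
  · interval_cases i
    exacts [of_cuB h cu0, of_cuB h cu1, of_cuB h cu2, of_cuB h cu3, of_cuB h cu4,
      of_cuB h cu5, of_cuB h cu6, of_cuB h cu7, of_cuB h cu8, of_cuB h cu9]
  · interval_cases j <;> interval_cases i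
    exacts [of_cjB h cj10, of_cjB h cj20, of_cjB h cj21, of_cjB h cj30, of_cjB h cj31,
      of_cjB h cj32, of_cjB h cj40, of_cjB h cj41, of_cjB h cj42, of_cjB h cj43,
      of_cjB h cj50, of_cjB h cj51, of_cjB h cj52, of_cjB h cj53, of_cjB h cj54,
      of_cjB h cj60, of_cjB h cj61, of_cjB h cj62, of_cjB h cj63, of_cjB h cj64,
      of_cjB h cj65, of_cjB h cj70, of_cjB h cj71, of_cjB h cj72, of_cjB h cj73,
      of_cjB h cj74, of_cjB h cj75, of_cjB h cj76, of_cjB h cj80, of_cjB h cj81,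
      of_cjB h cj82, of_cjB h cj83, of_cjB h cj84, of_cjB h cj85, of_cjB h cj86,
      of_cjB h cj87, of_cjB h cj90, of_cjB h cj91, of_cjB h cj92, of_cjB h cj93,
      of_cjB h cj94, of_cjB h cj95, of_cjB h cj96, of_cjB h cj97, of_cjB h cj98]

theorem sylow_of {G H : Type*} [Group G] [Finite G] [Group H] [Fact (Nat.Prime 3)] (ρ : G →* H)
    {Y : ℕ → G} (h : Rel fun i => ρ (Y i)) (h11 : 3 ^ 10 ∣ Nat.card G → ¬ 3 ^ 11 ∣ Nat.card G)
    (T : Sylow 3 G) : ∃ y : ℕ → T, PC y := by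
  obtain ⟨z, hz⟩ := h.pc
  set R := Subgroup.closure ((fun i => ρ (Y i)) '' {i | i < 10})
  have hR : R ≤ ρ.range := (Subgroup.closure_le _).2 (by rintro _ ⟨i, -, rfl⟩; exact ⟨_, rfl⟩)
  have := hz.finite
  have hφ : Function.Surjective (ρ.subgroupComap R) := fun r => by
    obtain ⟨g, hg⟩ := hR r.2
    exact ⟨⟨g, by rw [Subgroup.mem_comap, hg]; exact r.2⟩, Subtype.ext hg⟩
  obtain ⟨P⟩ : Nonempty (Sylow 3 (R.comap ρ)) := inferInstance
  have h1 : (P : Subgroup (R.comap ρ)).map (ρ.subgroupComap R) = ⊤ :=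
    ((P.mapSurjective hφ).is_maximal' hz.pg_top le_top).symm
  let ψ : P →* R := (ρ.subgroupComap R).comp (P : Subgroup (R.comap ρ)).subtype
  have hψ : Function.Surjective ψ := fun r => by
    obtain ⟨g, hg, e⟩ : r ∈ (P : Subgroup (R.comap ρ)).map (ρ.subgroupComap R) := h1 ▸ trivial
    exact ⟨⟨g, hg⟩, e⟩
  let e₁ := (P : Subgroup (R.comap ρ)).equivMapOfInjective _ (R.comap ρ).subtype_injective
  obtain ⟨Q, hQ⟩ := (P.isPGroup'.of_equiv e₁).exists_le_sylow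
  have h2 : 3 ^ 10 ∣ Nat.card P := hz.card ▸ Subgroup.card_dvd_of_surjective ψ hψ
  have h3 : Nat.card P ∣ Nat.card Q := Nat.card_congr e₁.toEquiv ▸ Subgroup.card_dvd_of_le hQ
  have h4 := (Q : Subgroup G).card_subgroup_dvd_card
  obtain ⟨m, hm⟩ := IsPGroup.iff_card.1 Q.isPGroup'
  have h5 : Nat.card Q ∣ 3 ^ 10 := by
    rw [hm]
    refine pow_dvd_pow _ (not_lt.1 fun hlt => h11 ((h2.trans h3).trans h4) ?_)
    exact (pow_dvd_pow _ hlt).trans (hm ▸ h4)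
  have h6 : Nat.card P = 3 ^ 10 := Nat.dvd_antisymm (h3.trans h5) h2
  have h7 : (P : Subgroup (R.comap ρ)).map (R.comap ρ).subtype = Q :=
    Subgroup.eq_of_le_of_card_ge hQ (by
      rw [← Nat.card_congr e₁.toEquiv, h6]; exact Nat.le_of_dvd (by norm_num) h5)
  let e₂ := MulEquiv.ofBijective ψ ((Nat.bijective_iff_surjective_and_card ψ).2
    ⟨hψ, h6.trans hz.card.symm⟩)
  exact ⟨_, hz.map (e₂.symm.trans (e₁.trans ((MulEquiv.subgroupCongr h7).trans (Q.equiv T))))⟩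

theorem sylow_of_dvd [Finite Th] [Fact (Nat.Prime 3)] (hle : Nat.card Th ≤ 634023936 * 147073761)
    (hd : 2 ^ 14 * 5 ^ 3 * 7 ^ 2 * 13 * 19 * 31 ∣ Nat.card Th) (T : Sylow 3 Th) :
    ∃ y : ℕ → T, PC y := by
  obtain ⟨Y, h⟩ := exists_rel
  refine sylow_of rho h (fun _ h11 => ?_) T
  exact absurd ((Nat.le_of_dvd Nat.card_pos
    (Nat.Coprime.mul_dvd_of_dvd_of_dvd (by norm_num) hd h11)).trans hle) (by norm_num)

end Cfsg.Agent.ThR
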