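import Cfsg.Agent.Lib.ThR.Sec
import Cfsg.Agent.Lib.ThR.Pd
import Cfsg.Agent.Lib.Th.Enum

/-! The Sylow `3`-subgroups of the Thompson group. -/

set_option autoImplicit false

namespace Cfsg.Agent.ThS

theorem sylow [Fact (Nat.Prime 3)] (T : Sylow 3 Cfsg.Spor.Th) : ∃ y : ℕ → T, PC y :=
  ThR.sylow_of_dvd TE.card_Th_le ThR.dvd T

end Cfsg.Agent.ThS
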