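import Cfsg.Agent.Lib.ThR.Rho
import Cfsg.Agent.Lib.ThR.D1

/-! Generators of a Sylow `3`-subgroup lie in the image of the representation. -/

set_option autoImplicit false
set_option maxRecDepth 100000
set_option Elab.async false

namespace Cfsg.Agent.ThR

theorem im_g : Im xg := (Im.ex (eb * eu * eb * (ed * ec) * eb * eU * (eb * eu) * (ed * ec))).lit
  (by decide +kernel)

theorem im_G : Im xG := im_g.inv (by decide +kernel)

theorem im_L : Im xL := ((im_G.mul
  (Im.ex (ea * (eU * ed) * (eU * ed) * es * ee * ed * eS * eS * ee * eS * ed * ec))).mul im_g).lit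
  (by decide +kernel)

theorem im_M : Im xM := ((im_G.mul
  (Im.ex (ea * ec * (es * ee) * (es * ee) * ed * eS * ee * es * eu * ed * eu))).mul im_g).lit
  (by decide +kernel)

theorem im_k : Im xk := (Im.ex (ec * ed * ee * (ec * ed) * ec)).lit (by decide +kernel)

theorem im0 : Im y0 := ((Im.ex (eb * ea)).mul im_L).lit (by decide +kernel)

theorem im1 : Im y1 := (Im.ex (ed * eu * ed * eU)).lit (by decide +kernel)

theorem im2 : Im y2 := ((((Im.ex ea).mul im_k).mul (Im.ex eb)).mul im_k).lit (by decide +kernel)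

theorem im3 : Im y3 := (((((Im.ex (ea * eT)).mul im_k).mul (Im.ex eb)).mul im_L).mul im_k).lit
  (by decide +kernel)

theorem im4 : Im y4 := (((((im_k.mul im_M).mul (im_k.mul im_L)).mul im_L).mul
  (im_k.mul im_L)).mul (im_k.mul im_L)).lit (by decide +kernel)

theorem im5 : Im y5 := (Im.ex (ea * eb)).lit (by decide +kernel)

theorem im6 : Im xt := Im.ex et

theorem im7 : Im y7 := ((im_G.mul (Im.ex (ec * ed * ec * ee))).mul im_g).lit (by decide +kernel)

theorem im8 : Im y8 := (Im.ex (eb * (eu * ed * eU) * (eb * (eu * ed * eU)))).lit (by decide +kernel)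

theorem im9 : Im y9 := (Im.ex (ed * ee)).lit (by decide +kernel)

end Cfsg.Agent.ThR
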